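import Cfsg.Agent.J2Type.Model

/-!
# The number of solutions of `c² = 1` in `2^{1+4}_-.A₅` (helper547)

At most 132 (model of helper206).
-/

set_option autoImplicit false
set_option maxRecDepth 100000

namespace Cfsg.Agent.H547.OB.ModelCount

open Cfsg.Agent.J2Type.Model

/-- conditions on the signed permutation of an element with square 1 -/
def Pb (x : Equiv.Perm (Fin 5) × (Fin 5 → ZMod 2)) : Prop :=
  Equiv.Perm.sign x.1 = 1 ∧ x.1 * x.1 = 1 ∧ ∑ i, x.2 i = 0 ∧ (∀ i, x.2 i + x.2 (x.1 i) = 0) ∧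
    (x.1 = 1 → (∀ i, x.2 i = 0) ∨ ∃ j, ∀ i, x.2 i = if i = j then 0 else 1)

instance : DecidablePred Pb := fun x => by unfold Pb; infer_instance

theorem card_Pb : Fintype.card {x : Equiv.Perm (Fin 5) × (Fin 5 → ZMod 2) // Pb x} = 66 := by
  decide +kernel

variable {C : Type*} [Group C] {Q : Subgroup C} {z : C} {v : Fin 5 → C} {ρ : C →* SP}

theorem pb_of_sq (M : IsModel Q z v ρ) {c : C} (hc : c * c = 1) : Pb ((ρ c).σ, (ρ c).s) := by
  obtain ⟨h1, h2⟩ := (M.range (ρ c)).1 ⟨c, rfl⟩
  have h3 : ρ c * ρ c = 1 := by rw [← map_mul, hc, map_one]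
  refine ⟨h1, congrArg SP.σ h3, h2, fun i => ?_, fun hσ => ?_⟩
  · exact congrFun (congrArg SP.s h3) i
  · have hσ' : (ρ c).σ = 1 := hσ
    have hQ : c ∈ Q := (M.mem_Q c).2 hσ'
    rcases M.cover c hQ with ⟨a, ha⟩ | ⟨a, j, ha⟩ | ⟨a, i, j, hij, ha⟩
    · left
      have h4 : ρ c = 1 := by
        rw [M.ker, ha]
        rcases zmod2_cases a with rfl | rfl
        · left; rw [zp_zero]
        · right; rw [zp_one]
      intro i
      show (ρ c).s i = 0
      rw [h4]
      rfl
    · right
      refine ⟨j, fun i => ?_⟩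
      show (ρ c).s i = _
      have h4 := M.conj c i
      rw [hσ', Equiv.Perm.one_apply] at h4
      have h5 : c * v i * c⁻¹ = v j * v i * (v j)⁻¹ := by
        rw [ha]
        have h6 := zp_comm z M.z_comm a (v j * v i * (v j)⁻¹)
        calc zp z a * v j * v i * (zp z a * v j)⁻¹ = zp z a * (v j * v i * (v j)⁻¹) * (zp z a)⁻¹ := by group
          _ = v j * v i * (v j)⁻¹ := by rw [← h6]; group
      rw [h5] at h4
      by_cases hij : i = j
      · rw [if_pos hij]
        subst hij
        have h7 : zp z 0 * v i = zp z ((ρ c).s i) * v i := by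
          rw [← h4, zp_zero]; group
        exact ((M.v_inj _ _ _ _ h7).1).symm
      · rw [if_neg hij]
        have h7 : zp z 1 * v i = zp z ((ρ c).s i) * v i := by
          rw [← h4, zp_one, M.v_anti j i (Ne.symm hij)]; group
        exact ((M.v_inj _ _ _ _ h7).1).symm
    · exfalso
      apply M.z_ne
      have h6 := zp_comm z M.z_comm a (v i * v j)
      have h7 : c * c = z := by
        rw [ha]
        calc zp z a * (v i * v j) * (zp z a * (v i * v j)) = zp z a * ((v i * v j) * zp z a) * (v i * v j) := by group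
          _ = (zp z a * zp z a) * (v i * (v j * v i) * v j) := by rw [h6]; group
          _ = v i * (v j * v i) * v j := by rw [zp_self z M.z_sq, one_mul]
          _ = v i * (z * (v i * v j)) * v j := by rw [M.v_anti j i hij.ne']
          _ = (v i * z) * (v i * (v j * v j)) := by group
          _ = z * (v i * v i) * (v j * v j) := by rw [M.z_comm]; group
          _ = z := by rw [M.v_sq, M.v_sq, mul_one, mul_one]
      rw [← h7, hc]

open Classical in
theorem card_sq_le (M : IsModel Q z v ρ) : Nat.card {c : C // c * c = 1} ≤ 132 := by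
  let ch : SP → C := fun g => if h : ∃ c, ρ c = g then h.choose else 1
  have hch : ∀ c, ρ (ch (ρ c)) = ρ c := by
    intro c
    have h : ∃ c', ρ c' = ρ c := ⟨c, rfl⟩
    show ρ (if h : ∃ c', ρ c' = ρ c then h.choose else 1) = _
    rw [dif_pos h]
    exact h.choose_spec
  let Φ : {c : C // c * c = 1} → {x : Equiv.Perm (Fin 5) × (Fin 5 → ZMod 2) // Pb x} × Bool := fun c =>
    (⟨((ρ c.1).σ, (ρ c.1).s), pb_of_sq M c.2⟩, decide (c.1 = ch (ρ c.1)))
  have hΦ : Function.Injective Φ := by
    rintro ⟨c, hc⟩ ⟨d, hd⟩ h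
    have h1 : ((ρ c).σ, (ρ c).s) = ((ρ d).σ, (ρ d).s) := congrArg Subtype.val (congrArg Prod.fst h)
    have h2 : decide (c = ch (ρ c)) = decide (d = ch (ρ d)) := congrArg Prod.snd h
    have h3 : ρ c = ρ d := SP.ext (congrArg Prod.fst h1) (congrArg Prod.snd h1)
    have hk : ∀ e : C, ρ e = ρ d → e = ch (ρ d) ∨ e = z * ch (ρ d) := by
      intro e he
      have h4 : ρ (e * (ch (ρ d))⁻¹) = 1 := by
        rw [map_mul, map_inv, hch, he, mul_inv_cancel]
      rcases (M.ker _).1 h4 with h5 | h5
      · left; exact mul_inv_eq_one.1 h5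
      · right; rw [← h5]; group
    rw [h3] at h2
    apply Subtype.ext
    show c = d
    rcases hk c h3 with h4 | h4 <;> rcases hk d rfl with h5 | h5
    · exact h4.trans h5.symm
    · rw [decide_eq_true h4] at h2
      exact h4.trans (of_decide_eq_true h2.symm).symm
    · rw [decide_eq_true h5] at h2
      exact (of_decide_eq_true h2).trans h5.symm
    · exact h4.trans h5.symm
  have h1 := Nat.card_le_card_of_injective Φ hΦ
  have h2 : Nat.card {x : Equiv.Perm (Fin 5) × (Fin 5 → ZMod 2) // Pb x} = 66 := by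
    rw [Nat.card_eq_fintype_card, ← card_Pb]
  have h3 : Nat.card Bool = 2 := by rw [Nat.card_eq_fintype_card, Fintype.card_bool]
  rw [Nat.card_prod, h2, h3] at h1
  exact h1

end Cfsg.Agent.H547.OB.ModelCount
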