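import Cfsg.Agent.H526.ObParity

/-!
# Parity criterion, elements of odd order (helper547)

As `NB.of_count` of helper526, for an element `w` of any odd order `r` (no elements of order `2 r`).
-/

set_option autoImplicit false

namespace Cfsg.Agent.H547.OB

open Cfsg Cfsg.Agent Cfsg.Agent.H526.OB Cfsg.Agent.H612.SectionR

variable {G : Type*} [Group G]

theorem orderOf_pow_eq_iff_odd [Finite G] {e : ℕ} (he : OE G e) {r : ℕ} (hr : Odd r)
    (h2r : ∀ g : G, orderOf g ≠ 2 * r) (g : G) : orderOf (g ^ e) = r ↔ orderOf g = r := by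
  constructor
  · intro h
    obtain ⟨j, hj⟩ := he.two g
    set x := g ^ e with hx
    set u := g * x⁻¹ with hu
    have hgx : Commute g x := Commute.self_pow g e
    have hux : Commute u x := hgx.mul_left (Commute.refl x).inv_left
    by_cases hu1 : u = 1
    · have : g = x := mul_inv_eq_one.1 hu1
      rw [this]; exact h
    · exfalso
      have hd : orderOf u ∣ 2 ^ j := orderOf_dvd_of_pow_eq_one hj
      obtain ⟨m, hm, hom⟩ := (Nat.dvd_prime_pow Nat.prime_two).1 hd
      have hm0 : m ≠ 0 := by
        rintro rfl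
        rw [pow_zero, orderOf_eq_one_iff] at hom
        exact hu1 hom
      obtain ⟨n, rfl⟩ := Nat.exists_eq_succ_of_ne_zero hm0
      have hv : orderOf (u ^ 2 ^ n) = 2 := by
        rw [orderOf_pow, hom, Nat.gcd_eq_right (pow_dvd_pow 2 (Nat.le_succ n)), Nat.succ_eq_add_one,
          pow_succ, Nat.mul_div_cancel_left _ (by positivity)]
      have hc : Commute (u ^ 2 ^ n) x := hux.pow_left _
      have hcop : Nat.Coprime (orderOf (u ^ 2 ^ n)) (orderOf x) := by
        rw [hv, h]
        exact Nat.coprime_two_left.2 hr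
      have := hc.orderOf_mul_eq_mul_orderOf_of_coprime hcop
      rw [hv, h] at this
      exact h2r _ this
  · intro h
    rw [he.fix g (by rw [h]; exact hr)]
    exact h

/-- **Counting criterion**: `w` of odd order `r` inverted by the involution `t`, no elements of order `2 r`. -/
theorem nb_of_count_odd [Finite G] {r : ℕ} (hr : Odd r) (h2r : ∀ g : G, orderOf g ≠ 2 * r) {w t : G}
    (hw : orderOf w = r) (ht : t * t = 1) (ht1 : t ≠ 1) (htw : t * w * t = w⁻¹)
    (hc : Odd (Nat.card {k : G // k * k = 1 ∧ k * t = t * k ∧ orderOf (k * w) = r})) : NB G := by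
  classical
  intro M hM
  by_contra hcon
  push Not at hcon
  obtain ⟨e, he⟩ := exists_OE (G := G)
  have hK : ∀ g : G, ∀ k ∈ {k : G | k * k = 1}, g * k * g⁻¹ ∈ {k : G | k * k = 1} := by
    intro g k hk
    have hk' : k * k = 1 := hk
    show g * k * g⁻¹ * (g * k * g⁻¹) = 1
    calc g * k * g⁻¹ * (g * k * g⁻¹) = g * (k * k) * g⁻¹ := by group
      _ = 1 := by rw [hk']; group
  have hX : ∀ g : G, ∀ x ∈ {x : G | orderOf x = r}, g * x * g⁻¹ ∈ {x : G | orderOf x = r} := by
    intro g x hx
    have : orderOf (g * x * g⁻¹) = orderOf x :=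
      orderOf_injective (MulAut.conj g).toMonoidHom (MulAut.conj g).injective x
    exact this.trans hx
  have hXo : ∀ x ∈ {x : G | orderOf x = r}, Odd (orderOf x) := by
    intro x hx
    have hx' : orderOf x = r := hx
    rw [hx']; exact hr
  have h1 := OneB.parity hM hcon he hK hX hXo w
  have hwX : w ^ e ∈ {x : G | orderOf x = r} := (orderOf_pow_eq_iff_odd he hr h2r w).2 hw
  rw [if_pos hwX, mul_one] at h1
  have h2 : Nat.card {k : G // k ∈ {k : G | k * k = 1} ∧ (k * w) ^ e ∈ {x : G | orderOf x = r}} =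
      Nat.card {k : G // k * k = 1 ∧ orderOf (k * w) = r} := by
    refine Nat.card_congr (Equiv.subtypeEquivRight fun k => ?_)
    exact and_congr_right fun _ => orderOf_pow_eq_iff_odd he hr h2r (k * w)
  rw [h2] at h1
  have ht' : t⁻¹ = t := inv_eq_of_mul_eq_one_right ht
  -- conjugation by `t`
  have hord : ∀ k : G, k * k = 1 → orderOf (t * k * t * w) = orderOf (k * w) := by
    intro k hk
    have hk' : k⁻¹ = k := inv_eq_of_mul_eq_one_right hk
    have e1 : t * (t * k * t * w) * t⁻¹ = k * w⁻¹ := by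
      rw [ht']
      calc t * (t * k * t * w) * t = (t * t) * k * (t * w * t) := by group
        _ = k * w⁻¹ := by rw [ht, one_mul, htw]
    have e2 : orderOf (t * k * t * w) = orderOf (k * w⁻¹) := by
      rw [← e1]
      exact (orderOf_injective (MulAut.conj t).toMonoidHom (MulAut.conj t).injective _).symm
    have e3 : orderOf (k * w⁻¹) = orderOf (w * k) := by
      rw [← orderOf_inv (k * w⁻¹), mul_inv_rev, inv_inv, hk']
    have e4 : orderOf (w * k) = orderOf (k * w) := by
      have : k * (w * k) * k⁻¹ = k * w := by group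
      rw [← this]
      exact (orderOf_injective (MulAut.conj k).toMonoidHom (MulAut.conj k).injective _).symm
    rw [e2, e3, e4]
  have htK : ∀ k : G, k * k = 1 → t * k * t * (t * k * t) = 1 := by
    intro k hk
    calc t * k * t * (t * k * t) = t * k * (t * t) * k * t := by group
      _ = t * (k * k) * t := by rw [ht]; group
      _ = 1 := by rw [hk, mul_one, ht]
  have h3 := card_modEq_of_involutive (α := {k : G // k * k = 1 ∧ orderOf (k * w) = r})
    (fun k => ⟨t * k.1 * t, htK _ k.2.1, (hord _ k.2.1).trans k.2.2⟩)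
    (fun k => Subtype.ext (conj_mul_conj t k.1 ht))
  have h4 : Nat.card {a : {k : G // k * k = 1 ∧ orderOf (k * w) = r} //
      (⟨t * a.1 * t, htK _ a.2.1, (hord _ a.2.1).trans a.2.2⟩ :
        {k : G // k * k = 1 ∧ orderOf (k * w) = r}) = a} =
      Nat.card {k : G // k * k = 1 ∧ k * t = t * k ∧ orderOf (k * w) = r} := by
    refine Nat.card_congr ⟨fun a => ⟨a.1.1, a.1.2.1, ?_, a.1.2.2⟩,
      fun a => ⟨⟨a.1, a.2.1, a.2.2.2⟩, ?_⟩, fun a => rfl, fun a => rfl⟩
    · have h5 : t * a.1.1 * t = a.1.1 := congrArg Subtype.val a.2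
      calc a.1.1 * t = (t * a.1.1 * t) * t := by rw [h5]
        _ = t * a.1.1 * (t * t) := by group
        _ = t * a.1.1 := by rw [ht, mul_one]
    · apply Subtype.ext
      show t * a.1 * t = a.1
      rw [← a.2.2.1, mul_assoc, ht, mul_one]
  rw [h4] at h3
  have h6 : Nat.card {k : G // k * k = 1 ∧ orderOf (k * w) = r} ≡ Nat.card {k : G // k ∈ {k : G | k * k = 1}} [MOD 2] := by
    rw [← Int.natCast_modEq_iff]
    exact ((Int.modEq_iff_dvd.2 (by simpa using h1)).symm)
  have h7 : Even (Nat.card {k : G // k * k = 1}) := even_card_sq_one ht ht1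
  rw [Nat.even_iff] at h7
  rw [Nat.odd_iff] at hc
  have h8 : _ % 2 = _ % 2 := h3
  have h9 : _ % 2 = _ % 2 := h6
  rw [hc] at h8
  rw [h8] at h9
  have h10 : Nat.card {k : G // k ∈ {k : G | k * k = 1}} % 2 = 0 := h7
  rw [h10] at h9
  exact one_ne_zero h9

end Cfsg.Agent.H547.OB
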