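import Cfsg.Agent.H547.OB.J3Data
import Cfsg.Agent.H547.OB.ModelCount
import Cfsg.Agent.H547.OB.ParityOdd
import Cfsg.Agent.KFacts.J3

/-!
# `J₃` has more than one 2-block (helper547, row ob_j3 of S5004)

`w` of order 9 inverted by the involution `z`: 33 of the 132 elements `k` of `C(z)` with `k² = 1` are such that `k w`
has order 9.
-/

set_option autoImplicit false
set_option maxRecDepth 100000

namespace Cfsg.Agent.H547.OB.J3

open Subgroup Cfsg Cfsg.Spor Cfsg.Agent.H526.OB Cfsg.Agent.H547.OB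
open Cfsg.Agent.J3.Core Cfsg.Agent.J3.Tab Cfsg.Agent.J3.Mono Cfsg.Agent.J3.Elts Cfsg.Agent.KFacts.J3W
open Cfsg.Agent.J2Type.Model Cfsg.Agent.J3Type.OneClass Matrix
open Cfsg.Agent.J3.Nineteen (exists_scalar center_eq card_center)

section

variable {F : Type*} [Field F] {ω : F}

theorem bd_lt {T : List ℕ} (h : bd T = true) : ∀ t ∈ T, t < 2 ^ 18 := by
  intro t ht
  unfold bd at h
  rw [List.all_eq_true] at h
  have h1 := h t ht
  rw [Nat.blt_eq] at h1
  exact h1

/-- the table of the inverse -/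
theorem repG_inv (H : Good ω) {T U : List ℕ} {g : threeJ3 F ω} (hg : RepG ω T g) (hU : ∀ u ∈ U, u < 2 ^ 18)
    (h : compT T U = tS 0) : RepG ω U g⁻¹ := by
  refine ⟨hU, fun n hn => ?_⟩
  have h1 : mat ω g *ᵥ dec ω (appT U n) = dec ω n := by
    rw [hg.2 _ (appT_lt hU n), ← appT_compT, h]
    have h2 := (repG_one (F := F) H).2 n hn
    rw [map_one, Matrix.one_mulVec] at h2
    exact h2.symm
  rw [← h1, Matrix.mulVec_mulVec, ← map_mul, inv_mul_cancel, map_one, Matrix.one_mulVec]

variable (G : Gens F ω)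

/-- the generators of `C(z)` -/
noncomputable def xE (l : ℕ) : threeJ3 F ω := if h : l < 5 then vv G ⟨l, h⟩ else cc G (l - 5)

variable {G}

theorem rep_x (H : Good ω) {l : ℕ} (hl : l < 8) : RepG ω (xT l) (xE G l) := by
  unfold xT xE
  by_cases h : l < 5
  · rw [if_pos h, dif_pos h]
    exact rep_v H ⟨l, h⟩
  · rw [if_neg h, dif_neg h]
    exact rep_c H (by omega)

theorem rep_xi (H : Good ω) {l : ℕ} (hl : l < 8) : RepG ω (xI l) (xE G l)⁻¹ := by
  have h := List.all_eq_true.1 xi_ok l (List.mem_range.2 hl)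
  rw [Bool.and_eq_true] at h
  exact repG_inv H (rep_x H hl) (bd_lt h.2) (beqL_eq h.1)

theorem x_comm (H : Good ω) {l : ℕ} (hl : l < 8) : xE G l * zz G = zz G * xE G l := by
  unfold xE
  by_cases h : l < 5
  · rw [dif_pos h]
    exact vz H ⟨l, h⟩
  · rw [dif_neg h]
    exact cz H (by omega)

theorem conj_comm {A : Type*} [Group A] {x g z : A} (hx : x * z = z * x) (hg : g * z = z * g) :
    x * g * x⁻¹ * z = z * (x * g * x⁻¹) := by
  have h1 : Commute x z := hx
  have h2 : Commute g z := hg
  exact ((h1.mul_left h2).mul_left h1.inv_left).eq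

/-- the elements given by the tables -/
theorem exists_el (H : Good ω) : ∀ i : ℕ, i < 132 →
    ∃ g : threeJ3 F ω, RepG ω (tb i) g ∧ g * g = 1 ∧ g * zz G = zz G * g := by
  intro i
  induction i using Nat.strong_induction_on with
  | _ i ih =>
    intro hi
    have h := List.all_eq_true.1 step_ok i (List.mem_range.2 hi)
    unfold stepOk at h
    by_cases h0 : i = 0
    · rw [if_pos h0] at h
      refine ⟨1, ?_, by rw [mul_one], by rw [one_mul, mul_one]⟩
      rw [← beqL_eq h]
      exact repG_one H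
    rw [if_neg h0] at h
    by_cases h1 : i = 1
    · rw [if_pos h1] at h
      refine ⟨zz G, ?_, zsq H, rfl⟩
      rw [← beqL_eq h]
      exact rep_z H
    rw [if_neg h1] at h
    by_cases h2 : i = 2
    · rw [if_pos h2] at h
      refine ⟨vv G 0, ?_, vsq H 0, vz H 0⟩
      rw [← beqL_eq h]
      exact rep_v H 0
    rw [if_neg h2] at h
    by_cases h3 : i = 3
    · rw [if_pos h3] at h
      refine ⟨uu G, ?_, ?_, uz H⟩
      · rw [← beqL_eq h]
        exact rep_u H
      · obtain ⟨g, hg⟩ := uconj (G := G) H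
        have e : uu G = g * zz G * g⁻¹ := by rw [hg, mul_inv_cancel_right]
        rw [e]
        calc g * zz G * g⁻¹ * (g * zz G * g⁻¹) = g * (zz G * zz G) * g⁻¹ := by group
          _ = 1 := by rw [zsq H]; group
    rw [if_neg h3, Bool.and_eq_true, Nat.blt_eq] at h
    obtain ⟨g, hg, hgg, hgz⟩ := ih _ h.1 (h.1.trans hi)
    by_cases h8 : get 0 kd i < 8
    · rw [if_pos h8] at h
      refine ⟨xE G (get 0 kd i) * g * (xE G (get 0 kd i))⁻¹, ?_, ?_, conj_comm (x_comm H h8) hgz⟩
      · rw [← beqL_eq h.2]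
        exact ((rep_x H h8).mul hg).mul (rep_xi H h8)
      · calc xE G (get 0 kd i) * g * (xE G (get 0 kd i))⁻¹ * (xE G (get 0 kd i) * g * (xE G (get 0 kd i))⁻¹)
            = xE G (get 0 kd i) * (g * g) * (xE G (get 0 kd i))⁻¹ := by group
          _ = 1 := by rw [hgg]; group
    · rw [if_neg h8] at h
      refine ⟨zz G * g, ?_, ?_, ?_⟩
      · rw [← beqL_eq h.2]
        exact (rep_z H).mul hg
      · calc zz G * g * (zz G * g) = zz G * (g * zz G) * g := by group
          _ = (zz G * zz G) * (g * g) := by rw [hgz]; group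
          _ = 1 := by rw [zsq H, hgg, mul_one]
      · rw [mul_assoc, hgz, ← mul_assoc, mul_assoc]

/-! ### scalars -/

theorem cols_length : ∀ T : List ℕ, T.length = 18 → (cols T).length = 9 := by
  have key : ∀ (n : ℕ) (T : List ℕ), T.length = 2 * n → (cols T).length = n := by
    intro n
    induction n with
    | zero => intro T hT; rw [List.length_eq_zero_iff.1 hT]; rfl
    | succ n ih =>
      intro T hT
      match T, hT with
      | a :: b :: l, h =>
        show (a :: cols l).length = _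
        rw [List.length_cons, ih l (by simp only [List.length_cons] at h; omega)]
  intro T hT
  exact key 9 T hT

theorem exists_idx9 : ∀ i : ℕ, i < 9 → ∃ z : F9, idx z = i := by decide

theorem cols_ext (H : Good ω) {T U : List ℕ} {g : threeJ3 F ω} (hT : RepG ω T g) (hU : RepG ω U g)
    (h1 : T.length = 18) (h2 : U.length = 18) : cols T = cols U := by
  apply List.ext_getElem
  · rw [cols_length T h1, cols_length U h2]
  · intro i hi hi'
    have h9 : i < 9 := by rwa [cols_length T h1] at hi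
    obtain ⟨z, hz⟩ := exists_idx9 i h9
    have h := hT.cols_eq H hU z
    rw [hz, List.getD_eq_getElem _ _ hi, List.getD_eq_getElem _ _ hi'] at h
    exact h

theorem tS_len : ∀ s : Fin 3, (tS s).length = 18 := by decide

theorem beqL_refl : ∀ T : List ℕ, beqL T T = true
  | [] => rfl
  | a :: l => by
    show (Nat.beq a a && beqL l l) = true
    rw [Nat.beq_refl, beqL_refl l]
    rfl

/-- central elements have scalar tables -/
theorem sc_iff [Fintype F] (hF : Fintype.card F = 4) (H : Good ω) {T : List ℕ} {g : threeJ3 F ω}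
    (hT : RepG ω T g) (hl : T.length = 18) : g ∈ center (threeJ3 F ω) ↔ sc (cols T) = true := by
  obtain ⟨G⟩ := exists_gens hF H
  obtain ⟨s0, hs0⟩ := exists_scalar H G
  have hrep : ∀ s : Fin 3, RepG ω (tS s) (s0 ^ (s : ℕ)) := by
    intro s
    have h := repS H (s : ℕ) s.2
    unfold RepG
    rw [map_pow, hs0, smul_pow, one_pow]
    exact h
  have hs3 : s0 ^ 3 = 1 := by
    apply mat_injective
    rw [map_pow, hs0, smul_pow, one_pow, H.cube, one_smul, map_one]
  unfold sc
  rw [Bool.or_eq_true, Bool.or_eq_true]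
  constructor
  · intro hg
    rw [center_eq hF H hs0] at hg
    have hfin : IsOfFinOrder s0 := isOfFinOrder_iff_pow_eq_one.2 ⟨3, by norm_num, hs3⟩
    obtain ⟨k, rfl⟩ := (hfin.mem_powers_iff_mem_zpowers.2 hg)
    have h1 : s0 ^ k = s0 ^ (k % 3) := by
      conv_lhs => rw [← Nat.div_add_mod k 3, pow_add, pow_mul, hs3, one_pow, one_mul]
    have h2 : RepG ω T (s0 ^ (k % 3)) := h1 ▸ hT
    have h3 : k % 3 < 3 := Nat.mod_lt _ (by norm_num)
    have h4 := cols_ext H h2 (hrep ⟨k % 3, h3⟩) hl (tS_len ⟨k % 3, h3⟩)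
    have h5 : k % 3 = 0 ∨ k % 3 = 1 ∨ k % 3 = 2 := by omega
    rcases h5 with h5 | h5 | h5
    · left
      rw [h4]
      simp only [h5]
      exact beqL_refl _
    · right; left
      rw [h4]
      simp only [h5]
      exact beqL_refl _
    · right; right
      rw [h4]
      simp only [h5]
      exact beqL_refl _
  · have hmem : ∀ s : Fin 3, cols T = cols (tS s) → g ∈ center (threeJ3 F ω) := by
      intro s h
      rw [hT.ext (hrep s) h, center_eq hF H hs0]
      exact Subgroup.pow_mem _ (Subgroup.mem_zpowers s0) _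
    rintro (h | h | h)
    · exact hmem 0 (beqL_eq h)
    · exact hmem 1 (beqL_eq h)
    · exact hmem 2 (beqL_eq h)

theorem compT_length (T U : List ℕ) : (compT T U).length = U.length := List.length_map _

variable {K : Type*} [Group K] {f : threeJ3 F ω →* K}

theorem ord9_iff [Fintype F] (hF : Fintype.card F = 4) (H : Good ω) (hk : f.ker = center _) {T : List ℕ}
    {g : threeJ3 F ω} (hT : RepG ω T g) (hl : T.length = 18) : orderOf (f g) = 9 ↔ ord9 T = true := by
  have e3 : f g ^ 3 = 1 ↔ sc (compT T (compT T (cols T))) = true := by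
    have h1 : RepG ω (compT T (compT T T)) (g ^ 3) := by
      rw [pow_succ', pow_two]
      exact hT.mul (hT.mul hT)
    rw [← map_pow, ← MonoidHom.mem_ker, hk, sc_iff hF H h1 (by rw [compT_length, compT_length, hl]), cols_compT,
      cols_compT]
  have e9 : f g ^ 9 = 1 ↔ sc (compT (compT T (compT T T)) (compT (compT T (compT T T)) (compT T (compT T (cols T))))) = true := by
    have h1 : RepG ω (compT T (compT T T)) (g ^ 3) := by
      rw [pow_succ', pow_two]
      exact hT.mul (hT.mul hT)
    have h2 : RepG ω (compT (compT T (compT T T)) (compT (compT T (compT T T)) (compT T (compT T T)))) (g ^ 9) := by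
      have e : g ^ 9 = g ^ 3 * (g ^ 3 * g ^ 3) := by rw [← pow_add, ← pow_add]
      rw [e]
      exact h1.mul (h1.mul h1)
    rw [← map_pow, ← MonoidHom.mem_ker, hk, sc_iff hF H h2 (by simp only [compT_length, hl]), cols_compT,
      cols_compT, cols_compT, cols_compT]
  unfold ord9
  rw [Bool.and_eq_true, ← e9, Bool.not_eq_true', ← Bool.not_eq_true, ← e3]
  constructor
  · intro h
    refine ⟨fun h3 => ?_, by rw [← h, pow_orderOf_eq_one]⟩
    have := orderOf_dvd_of_pow_eq_one h3
    rw [h] at this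
    norm_num at this
  · rintro ⟨h3, h9⟩
    have : Fact (Nat.Prime 3) := ⟨by norm_num⟩
    exact orderOf_eq_prime_pow (p := 3) (n := 1) (by rwa [pow_one]) (by simpa using h9)

theorem nodup_inj {l : List ℕ} (h : l.Nodup) {i j : ℕ} (hi : i < l.length) (hj : j < l.length)
    (e : l[i] = l[j]) : i = j := (List.Nodup.getElem_inj_iff h).1 e

theorem get_eq_getD {α : Type} (d : α) : ∀ (l : List α) (i : ℕ), J3.Tab.get d l i = l.getD i d
  | [], _ => rfl
  | _ :: _, 0 => rfl
  | a :: l, i + 1 => by
    show J3.Tab.get d l i = _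
    rw [get_eq_getD d l i, List.getD_cons_succ]

theorem tbs_length : tbs.length = 132 := by decide +kernel

/-- the column that distinguishes the elements -/
theorem fp_inj {i j : ℕ} (hi : i < 132) (hj : j < 132) (h : (tb i).getD 2 0 = (tb j).getD 2 0) : i = j := by
  have h1 : ∀ k (hk : k < 132), (tbs.map fun T => get 0 T 2)[k]'(by rw [List.length_map, tbs_length]; exact hk) =
      (tb k).getD 2 0 := by
    intro k hk
    have hk' : k < tbs.length := by rw [tbs_length]; exact hk
    have h2 : tb k = tbs[k] := by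
      unfold tb
      rw [get_eq_getD, List.getD_eq_getElem _ _ hk']
    rw [List.getElem_map, get_eq_getD, h2]
  refine nodup_inj fp_ok (by rw [List.length_map, tbs_length]; exact hi)
    (by rw [List.length_map, tbs_length]; exact hj) ?_
  rw [h1 i hi, h1 j hj, h]

theorem idx_one_exists : ∃ z : F9, idx z = 1 := exists_idx9 1 (by norm_num)

end

theorem nb_core {F : Type*} [Field F] [Fintype F] {ω : F} (hF : Fintype.card F = 4) (H : Good ω) (G : Gens F ω)
    {K : Type*} [Group K] {f : threeJ3 F ω →* K} (hf : Function.Surjective f) (hk : f.ker = center _)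
    (h18 : ∀ g : K, orderOf g ≠ 2 * 9) : NB K := by
  have hcK := card_K hF H hf hk
  have hfin : Finite K := Nat.finite_of_card_ne_zero (by rw [hcK]; norm_num)
  obtain ⟨-, Q, ρ, M⟩ := j3_model (G := G) hF H hf hk
  have htt : f (zz G) * f (zz G) = 1 := by rw [← map_mul, zsq H, map_one]
  have ht1 : f (zz G) ≠ 1 := f_ne H hk
  -- the element `w`
  have hg : RepG ω gT (ev G [13, 23]) := by
    have h := rep_ev G H [13, 23] gw_w
    rwa [beqL_eq gw_ok] at h
  have hgi : RepG ω gI (ev G [13, 23])⁻¹ := by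
    have h := g_ok
    rw [Bool.and_eq_true] at h
    exact repG_inv H hg (bd_lt h.2) (beqL_eq h.1)
  set g := ev G [13, 23] with hgdef
  have hw : RepG ω wT (zz G * (g * (zz G * g⁻¹))) := by
    have h := (rep_z (G := G) H).mul (hg.mul ((rep_z (G := G) H).mul hgi))
    rwa [beqL_eq w_ok] at h
  set w := zz G * (g * (zz G * g⁻¹)) with hwdef
  have hwl : wT.length = 18 := by decide
  have how : orderOf (f w) = 9 := (ord9_iff hF H hk hw hwl).2 w_ord
  have hinv : f (zz G) * f w * f (zz G) = (f w)⁻¹ := by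
    rw [← map_mul, ← map_mul, ← map_inv]
    congr 1
    rw [hwdef]
    have hz := zsq (G := G) H
    have hz' : (zz G)⁻¹ = zz G := inv_eq_of_mul_eq_one_right hz
    calc zz G * (zz G * (g * (zz G * g⁻¹))) * zz G = (zz G * zz G) * (g * zz G * g⁻¹ * zz G) := by group
      _ = g * zz G * g⁻¹ * zz G := by rw [hz, one_mul]
      _ = (zz G * (g * (zz G * g⁻¹)))⁻¹ := by
        rw [_root_.mul_inv_rev, _root_.mul_inv_rev, _root_.mul_inv_rev, inv_inv, hz']
  refine nb_of_count_odd (r := 9) (by decide) h18 how htt ht1 hinv ?_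
  -- the elements
  choose el hel hsq hcm using exists_el (G := G) H
  let Φ : Fin 132 → {k : K // k * k = 1 ∧ k * f (zz G) = f (zz G) * k} := fun i =>
    ⟨f (el i i.2), by rw [← map_mul, hsq, map_one], hmul (hcm i i.2)⟩
  have hΦ : Function.Injective Φ := by
    intro i j h
    have h1 : f (el i i.2) = f (el j j.2) := congrArg Subtype.val h
    have h2 : el i i.2 * (el j j.2)⁻¹ ∈ center (threeJ3 F ω) := by
      rw [← hk, MonoidHom.mem_ker, map_mul, map_inv, h1, mul_inv_cancel]
    have hji : (el j j.2)⁻¹ = el j j.2 := inv_eq_of_mul_eq_one_right (hsq j j.2)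
    have h3 : el i i.2 * (el j j.2)⁻¹ * (el i i.2 * (el j j.2)⁻¹) = 1 := by
      have h4 := mem_center_iff.1 h2 (el j j.2)
      have h5 : el i i.2 = el i i.2 * (el j j.2)⁻¹ * el j j.2 := by group
      calc el i i.2 * (el j j.2)⁻¹ * (el i i.2 * (el j j.2)⁻¹)
          = el i i.2 * (el j j.2 * (el i i.2 * (el j j.2)⁻¹)) := by rw [hji]; group
        _ = el i i.2 * ((el i i.2 * (el j j.2)⁻¹) * el j j.2) := by rw [h4]
        _ = 1 := by rw [← h5, hsq]
    have h4 := center_cube hF H h2 h3
    have h5 : el i i.2 = el j j.2 := mul_inv_eq_one.1 h4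
    have h6 := hel i i.2
    rw [h5] at h6
    obtain ⟨z, hz⟩ := idx_one_exists
    have h7 := h6.cols_eq H (hel j j.2) z
    rw [hz, cols_getD, cols_getD] at h7
    exact Fin.ext (fp_inj i.2 j.2 h7)
  have hle : Nat.card {k : K // k * k = 1 ∧ k * f (zz G) = f (zz G) * k} ≤ 132 := by
    refine le_trans (le_of_eq ?_) (ModelCount.card_sq_le M)
    refine Nat.card_congr ⟨fun k => ⟨⟨k.1, mem_centralizer_singleton_iff.2 k.2.2⟩, Subtype.ext k.2.1⟩,
      fun c => ⟨c.1.1, congrArg Subtype.val c.2, mem_centralizer_singleton_iff.1 c.1.2⟩, fun _ => rfl, fun _ => rfl⟩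
  have hbij : Function.Bijective Φ := by
    refine hΦ.bijective_of_nat_card_le ?_
    rw [Nat.card_eq_fintype_card (α := Fin 132), Fintype.card_fin]
    exact hle
  have e1 : {i : Fin 132 // ord9 (compT (tb i) wT) = true} ≃
      {k : K // k * k = 1 ∧ k * f (zz G) = f (zz G) * k ∧ orderOf (k * f w) = 9} := by
    refine Equiv.trans (Equiv.subtypeEquiv (Equiv.ofBijective Φ hbij)
      (q := fun k => orderOf (k.1 * f w) = 9) ?_) ?_
    · intro i
      show ord9 (compT (tb i) wT) = true ↔ orderOf (f (el i i.2) * f w) = 9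
      rw [← map_mul]
      exact (ord9_iff hF H hk ((hel i i.2).mul hw) (by rw [compT_length, hwl])).symm
    · refine (Equiv.subtypeSubtypeEquivSubtypeInter (fun k : K => k * k = 1 ∧ k * f (zz G) = f (zz G) * k)
        (fun k => orderOf (k * f w) = 9)).trans (Equiv.subtypeEquivRight fun k => ?_)
      rw [and_assoc]
  rw [← Nat.card_congr e1]
  have e2 : Nat.card {i : Fin 132 // ord9 (compT (tb i) wT) = true} = 33 := by
    rw [← cnt_ok, ← List.toFinset_card_of_nodup (List.nodup_range.filter _), ← Fintype.card_coe,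
      ← Nat.card_eq_fintype_card]
    refine Nat.card_congr ⟨fun i => ⟨i.1.1, ?_⟩, fun i => ⟨⟨i.1, ?_⟩, ?_⟩, fun _ => rfl, fun _ => rfl⟩
    · rw [List.mem_toFinset, List.mem_filter]
      exact ⟨List.mem_range.2 i.1.2, i.2⟩
    · have h := i.2
      rw [List.mem_toFinset, List.mem_filter] at h
      exact List.mem_range.1 h.1
    · have h := i.2
      rw [List.mem_toFinset, List.mem_filter] at h
      exact h.2
  rw [e2]
  decide

universe u

theorem nb_j3 {S : Type u} [Group S] [Finite S] (h : Cfsg.Spor.IsoJ3 S) : NB S := by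
  obtain ⟨-, z, Q, v, ρ, n, u, Fa⟩ := KFacts.J3.exists_facts h
  have h18 : ∀ g : S, orderOf g ≠ 2 * 9 := by
    intro g hg
    have h1 : orderOf (g ^ 9) = 2 := by
      rw [orderOf_pow, hg]; norm_num
    have h2 : orderOf (g ^ 2) = 9 := by
      rw [orderOf_pow, hg]; norm_num
    have h3 : g ^ 9 ≠ 1 := by
      intro h4
      rw [h4, orderOf_one] at h1
      norm_num at h1
    have h4 : g ^ 9 * g ^ 9 = 1 := by
      rw [← pow_two, ← h1, pow_orderOf_eq_one]
    obtain ⟨c, hc⟩ := Fa.one _ h3 h4
    have h5 : c⁻¹ * g ^ 2 * c ∈ centralizer ({z} : Set S) := by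
      rw [mem_centralizer_singleton_iff]
      have h6 : z = c⁻¹ * g ^ 9 * c := by rw [← hc]; group
      rw [h6]
      have h7 : g ^ 2 * g ^ 9 = g ^ 9 * g ^ 2 := by rw [← pow_add, ← pow_add, add_comm]
      calc c⁻¹ * g ^ 2 * c * (c⁻¹ * g ^ 9 * c) = c⁻¹ * (g ^ 2 * g ^ 9) * c := by group
        _ = c⁻¹ * (g ^ 9 * g ^ 2) * c := by rw [h7]
        _ = c⁻¹ * g ^ 9 * c * (c⁻¹ * g ^ 2 * c) := by group
    have h6 : orderOf (⟨c⁻¹ * g ^ 2 * c, h5⟩ : centralizer ({z} : Set S)) ∣ _ := orderOf_dvd_natCard _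
    rw [Subgroup.orderOf_mk, Fa.card_C] at h6
    have h7 : orderOf (c⁻¹ * g ^ 2 * c) = 9 := by
      rw [← h2]
      have h8 : c⁻¹ * g ^ 2 * c = MulAut.conj c⁻¹ (g ^ 2) := by rw [MulAut.conj_apply, inv_inv]
      rw [h8]
      exact orderOf_injective (MulAut.conj c⁻¹).toMonoidHom (MulAut.conj c⁻¹).injective _
    rw [h7] at h6
    norm_num at h6
  obtain ⟨F, _, _, ω, hF, hω, ⟨e⟩⟩ := h
  have H := good_of_card hF hω
  obtain ⟨G⟩ := exists_gens hF H
  let f : threeJ3 F ω →* S := e.symm.toMonoidHom.comp (QuotientGroup.mk' (center (threeJ3 F ω)))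
  have hf : Function.Surjective f := e.symm.surjective.comp (QuotientGroup.mk'_surjective _)
  have hk : f.ker = center _ := by
    ext x
    rw [MonoidHom.mem_ker]
    show e.symm (QuotientGroup.mk' _ x) = 1 ↔ _
    rw [map_eq_one_iff _ e.symm.injective]
    exact QuotientGroup.eq_one_iff x
  exact nb_core hF H G hf hk h18

end Cfsg.Agent.H547.OB.J3
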